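import Mathlib

/-!
# N2 (S3519), classical socles: the orders of the classical groups as numbers, and bounds (helper58)
-/

set_option autoImplicit false

namespace Cfsg.Agent.N2C.Cyc

open Finset

/-- `|GL_n(q)|` -/
def oGL (n q : ℕ) : ℕ := q ^ (n * (n - 1) / 2) * ∏ i ∈ range n, (q ^ (i + 1) - 1)

/-- `|GU_n(q)|` -/
def oGU (n q : ℕ) : ℕ := q ^ (n * (n - 1) / 2) * ∏ i ∈ range n, (if Even i then q ^ (i + 1) + 1 else q ^ (i + 1) - 1)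

/-- `∏ (q^(2i) - 1)`, `1 ≤ i ≤ m` -/
def PP (m q : ℕ) : ℕ := ∏ i ∈ range m, (q ^ (2 * (i + 1)) - 1)

/-- `|Sp_2k(q)| = |SO_(2k+1)(q)|` -/
def oSp (k q : ℕ) : ℕ := q ^ (k ^ 2) * PP k q

/-- `|O⁺_2m(q)| / 2` -/
def oP (m q : ℕ) : ℕ := q ^ (m * (m - 1)) * (q ^ m - 1) * PP (m - 1) q

/-- `|O⁻_2m(q)| / 2` -/
def oM (m q : ℕ) : ℕ := q ^ (m * (m - 1)) * (q ^ m + 1) * PP (m - 1) q

theorem tri_succ (n : ℕ) : (n + 1) * (n + 1 - 1) / 2 = n * (n - 1) / 2 + n := by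
  rw [← Nat.choose_two_right, ← Nat.choose_two_right, Nat.choose_succ_succ' n 1, Nat.choose_one_right, add_comm]

theorem oGL_succ (n q : ℕ) : oGL (n + 1) q = oGL n q * (q ^ n * (q ^ (n + 1) - 1)) := by
  rw [oGL, oGL, prod_range_succ, tri_succ, pow_add]
  ring

theorem oGU_succ (n q : ℕ) :
    oGU (n + 1) q = oGU n q * (q ^ n * (if Even n then q ^ (n + 1) + 1 else q ^ (n + 1) - 1)) := by
  rw [oGU, oGU, prod_range_succ, tri_succ, pow_add]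
  ring

theorem PP_succ (m q : ℕ) : PP (m + 1) q = PP m q * (q ^ (2 * (m + 1)) - 1) := prod_range_succ _ _

theorem prod_eq_oGL (n q : ℕ) : ∏ i : Fin n, (q ^ n - q ^ (i : ℕ)) = oGL n q := by
  rw [Fin.prod_univ_eq_prod_range (fun i => q ^ n - q ^ i) n]
  induction n with
  | zero => simp [oGL]
  | succ n ih =>
    rw [prod_range_succ', oGL_succ, ← ih, pow_zero, ← mul_assoc]
    congr 1
    rw [show q ^ n = ∏ _i ∈ range n, q by rw [prod_const, card_range], ← prod_mul_distrib]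
    refine prod_congr rfl fun i _ => ?_
    rw [prod_const, card_range, pow_succ, pow_succ, Nat.sub_mul]

variable {q : ℕ}

theorem oGL_le {n : ℕ} (hn : 1 ≤ n) : oGL n q ≤ (q - 1) * q ^ (n ^ 2 - 1) := by
  induction n, hn using Nat.le_induction with
  | base => simp [oGL]
  | succ n hn ih =>
    have h1 : (n + 1) ^ 2 - 1 = n ^ 2 - 1 + (n + (n + 1)) := by
      have : 1 ≤ n ^ 2 := Nat.one_le_pow _ _ hn
      have : (n + 1) ^ 2 = n ^ 2 + 2 * n + 1 := by ring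
      omega
    rw [oGL_succ, h1, pow_add q (n ^ 2 - 1), pow_add q n (n + 1), ← mul_assoc (q - 1)]
    exact Nat.mul_le_mul ih (Nat.mul_le_mul_left _ (Nat.sub_le _ _))

theorem oGL_le' (n q : ℕ) : oGL n q ≤ q ^ (n ^ 2) := by
  rcases Nat.eq_zero_or_pos n with rfl | hn
  · simp [oGL]
  refine (oGL_le hn).trans ?_
  have : 1 ≤ n ^ 2 := Nat.one_le_pow _ _ hn
  rw [show q ^ (n ^ 2) = q * q ^ (n ^ 2 - 1) by rw [← pow_succ', Nat.sub_add_cancel this]]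
  exact Nat.mul_le_mul_right _ (Nat.sub_le _ _)

theorem oGL_ge_aux (hq : 2 ≤ q) (n : ℕ) :
    (((q : ℤ) ^ 2 - q - 1) * q ^ n + 1) * q ^ (n ^ 2 + 2 * n) ≤ q ^ (n + 1) * oGL (n + 1) q := by
  have hq' : (2 : ℤ) ≤ q := by exact_mod_cast hq
  induction n with
  | zero =>
    have : 1 ≤ q := by omega
    simp [oGL, this]
    nlinarith
  | succ n ih =>
    have h1 : 1 ≤ q ^ (n + 1 + 1) := Nat.one_le_pow _ _ (by omega)
    rw [oGL_succ (n + 1), Nat.cast_mul, Nat.cast_mul, Nat.cast_sub h1]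
    push_cast
    have h2 : (0 : ℤ) < (q : ℤ) ^ n := by positivity
    have h3 : (0 : ℤ) ≤ (q : ℤ) ^ (n ^ 2 + 2 * n) := by positivity
    have h4 : (1 : ℤ) ≤ (q : ℤ) ^ (n + 1 + 1) := by exact_mod_cast h1
    have e1 : (q : ℤ) ^ ((n + 1) ^ 2 + 2 * (n + 1)) = q ^ (n ^ 2 + 2 * n) * (q ^ n * q ^ n * q ^ 3) := by ring
    have e2 : (q : ℤ) ^ (n + 1 + 1) * (oGL (n + 1) q * (q ^ (n + 1) * (q ^ (n + 1 + 1) - 1))) =
        q ^ (n + 1) * oGL (n + 1) q * (q ^ n * q ^ 2 * (q ^ (n + 1 + 1) - 1)) := by ring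
    rw [e1, e2]
    refine le_trans ?_ (mul_le_mul_of_nonneg_right ih (mul_nonneg (by positivity) (by omega)))
    generalize (q : ℤ) ^ (n ^ 2 + 2 * n) = Y at h3
    rw [show (q : ℤ) ^ (n + 1 + 1) = q ^ n * q ^ 2 by ring, show (q : ℤ) ^ (n + 1) = q ^ n * q by ring]
    generalize (q : ℤ) ^ n = X at h2
    have h5 : (((q : ℤ) ^ 2 - q - 1) * (X * q) + 1) * (X * q) ≤ (((q : ℤ) ^ 2 - q - 1) * X + 1) * (X * q ^ 2 - 1) := by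
      nlinarith
    have h6 := mul_le_mul_of_nonneg_right h5 (show (0 : ℤ) ≤ Y * (X * q ^ 2) by positivity)
    nlinarith

/-- `|SL_n(q)| ≥ (1 - 1 / (q (q - 1))) q^(n² - 1)` -/
theorem oGL_ge (hq : 2 ≤ q) {n : ℕ} (hn : 1 ≤ n) : (q ^ 2 - q - 1) * q ^ (n ^ 2 - 1) ≤ q * oGL n q := by
  obtain ⟨n, rfl⟩ := Nat.exists_eq_add_of_le' hn
  have h1 := oGL_ge_aux hq n
  have h2 : q + 1 ≤ q ^ 2 := by nlinarith
  rw [show (n + 1) ^ 2 - 1 = n ^ 2 + 2 * n by rw [Nat.sub_eq_iff_eq_add (Nat.one_le_pow _ _ hn)]; ring,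
    Nat.sub_sub]
  zify [h2]
  have h3 : (0 : ℤ) < (q : ℤ) ^ n := by positivity
  have h4 : (0 : ℤ) ≤ (q : ℤ) ^ (n ^ 2 + 2 * n) := by positivity
  refine le_of_mul_le_mul_left ?_ h3
  rw [pow_succ (q : ℤ) n] at h1
  nlinarith

/-- `|SL_n(q)| ≥ q^(n² - 1) / 2` -/
theorem oGL_ge' (hq : 2 ≤ q) {n : ℕ} (hn : 1 ≤ n) : (q - 1) * q ^ (n ^ 2 - 1) ≤ 2 * oGL n q := by
  have h1 := oGL_ge hq hn
  refine Nat.le_of_mul_le_mul_left ?_ (by omega : 0 < q)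
  have h2 : q * (q - 1) ≤ 2 * (q ^ 2 - q - 1) := by
    obtain ⟨r, rfl⟩ := Nat.exists_eq_add_of_le' hq
    rw [show (r + 2) ^ 2 - (r + 2) - 1 = r ^ 2 + 3 * r + 1 by
      rw [show (r + 2) ^ 2 = r ^ 2 + 3 * r + 1 + 1 + (r + 2) by ring]; omega, show r + 2 - 1 = r + 1 by omega]
    nlinarith
  calc q * ((q - 1) * q ^ (n ^ 2 - 1)) = q * (q - 1) * q ^ (n ^ 2 - 1) := by ring
    _ ≤ 2 * (q ^ 2 - q - 1) * q ^ (n ^ 2 - 1) := Nat.mul_le_mul_right _ h2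
    _ ≤ 2 * (q * oGL n q) := by rw [mul_assoc]; exact Nat.mul_le_mul_left _ h1
    _ = _ := by ring

theorem oGU_odd_le (hq : 1 ≤ q) (k : ℕ) : oGU (2 * k + 1) q ≤ (q + 1) * q ^ (4 * k ^ 2 + 4 * k) := by
  induction k with
  | zero => simp [oGU]
  | succ k ih =>
    rw [show 2 * (k + 1) + 1 = 2 * k + 1 + 1 + 1 by ring, oGU_succ, oGU_succ, if_neg (by simp [parity_simps]),
      if_pos (by simp [parity_simps]), mul_assoc,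
      show (q + 1) * q ^ (4 * (k + 1) ^ 2 + 4 * (k + 1)) = (q + 1) * q ^ (4 * k ^ 2 + 4 * k) *
        (q ^ (2 * k + 1) * q ^ (2 * k + 1 + 1) * (q ^ (2 * k + 1 + 1) * q ^ (2 * k + 1 + 1 + 1))) by ring]
    refine Nat.mul_le_mul ih ?_
    have h1 : (q ^ (2 * k + 1 + 1) - 1) * (q ^ (2 * k + 1 + 1 + 1) + 1) ≤ q ^ (2 * k + 1 + 1) * q ^ (2 * k + 1 + 1 + 1) := by
      have h2 : q ^ (2 * k + 1 + 1) ≤ q ^ (2 * k + 1 + 1 + 1) := Nat.pow_le_pow_right hq (by omega)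
      obtain ⟨a, ha⟩ := Nat.exists_eq_add_of_le' (Nat.one_le_pow (2 * k + 1 + 1) _ hq)
      rw [ha] at h2 ⊢
      rw [Nat.add_sub_cancel]
      nlinarith
    calc _ = q ^ (2 * k + 1) * q ^ (2 * k + 1 + 1) * ((q ^ (2 * k + 1 + 1) - 1) * (q ^ (2 * k + 1 + 1 + 1) + 1)) := by ring
      _ ≤ _ := Nat.mul_le_mul_left _ h1

/-- `|SU_n(q)| ≤ q^(n² - 1)` -/
theorem oGU_le (hq : 1 ≤ q) {n : ℕ} (hn : 1 ≤ n) : oGU n q ≤ (q + 1) * q ^ (n ^ 2 - 1) := by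
  obtain ⟨k, rfl | rfl⟩ : ∃ k, n = 2 * k + 1 ∨ n = 2 * k + 1 + 1 := ⟨(n - 1) / 2, by omega⟩
  · rw [show (2 * k + 1) ^ 2 - 1 = 4 * k ^ 2 + 4 * k by rw [Nat.sub_eq_iff_eq_add (Nat.one_le_pow _ _ hn)]; ring]
    exact oGU_odd_le hq k
  · rw [show (2 * k + 1 + 1) ^ 2 - 1 = 4 * k ^ 2 + 4 * k + (2 * k + 1 + (2 * k + 1 + 1)) by
      rw [Nat.sub_eq_iff_eq_add (Nat.one_le_pow _ _ hn)]; ring, oGU_succ, if_neg (by simp [parity_simps]), pow_add q (4 * k ^ 2 + 4 * k),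
      pow_add q (2 * k + 1) (2 * k + 1 + 1), ← mul_assoc (q + 1)]
    exact Nat.mul_le_mul (oGU_odd_le hq k) (Nat.mul_le_mul_left _ (Nat.sub_le _ _))

theorem oGU_even_ge (hq : 2 ≤ q) (k : ℕ) : (q + 1) * (q ^ 2 - 1) * q ^ (4 * k ^ 2 + 8 * k + 1) ≤ oGU (2 * k + 2) q := by
  induction k with
  | zero =>
    simp [oGU, prod_range_succ]
    exact le_of_eq (by ring)
  | succ k ih =>
    rw [show 2 * (k + 1) + 2 = 2 * k + 2 + 1 + 1 by ring, oGU_succ, oGU_succ, if_pos (by simp [parity_simps]),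
      if_neg (by simp [parity_simps]), mul_assoc (oGU _ _),
      show (q + 1) * (q ^ 2 - 1) * q ^ (4 * (k + 1) ^ 2 + 8 * (k + 1) + 1) = (q + 1) * (q ^ 2 - 1) * q ^ (4 * k ^ 2 + 8 * k + 1) *
        (q ^ (2 * k + 2) * q ^ (2 * k + 2 + 1) * (q ^ (2 * k + 2 + 1) * q ^ (2 * k + 2 + 1 + 1))) by ring]
    refine Nat.mul_le_mul ih ?_
    have h1 : q ^ (2 * k + 2 + 1) * q ^ (2 * k + 2 + 1 + 1) ≤ (q ^ (2 * k + 2 + 1) + 1) * (q ^ (2 * k + 2 + 1 + 1) - 1) := by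
      have h2 : q ^ (2 * k + 2 + 1) < q ^ (2 * k + 2 + 1 + 1) := Nat.pow_lt_pow_right hq (by omega)
      obtain ⟨a, ha⟩ := Nat.exists_eq_add_of_le' (Nat.one_le_pow (2 * k + 2 + 1 + 1) _ (by omega : 0 < q))
      rw [ha] at h2 ⊢
      rw [Nat.add_sub_cancel]
      nlinarith
    calc _ ≤ q ^ (2 * k + 2) * q ^ (2 * k + 2 + 1) * ((q ^ (2 * k + 2 + 1) + 1) * (q ^ (2 * k + 2 + 1 + 1) - 1)) :=
          Nat.mul_le_mul_left _ h1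
      _ = _ := by ring

/-- `|SU_n(q)| ≥ (1 - 1 / q²) q^(n² - 1)` -/
theorem oGU_ge (hq : 2 ≤ q) {n : ℕ} (hn : 2 ≤ n) : (q + 1) * (q ^ 2 - 1) * q ^ (n ^ 2 - 3) ≤ oGU n q := by
  have h0 : 3 ≤ n ^ 2 := by nlinarith
  obtain ⟨k, rfl | rfl⟩ : ∃ k, n = 2 * k + 2 ∨ n = 2 * k + 2 + 1 := ⟨(n - 2) / 2, by omega⟩
  · rw [show (2 * k + 2) ^ 2 - 3 = 4 * k ^ 2 + 8 * k + 1 by rw [Nat.sub_eq_iff_eq_add h0]; ring]
    exact oGU_even_ge hq k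
  · rw [show (2 * k + 2 + 1) ^ 2 - 3 = 4 * k ^ 2 + 8 * k + 1 + (2 * k + 2 + (2 * k + 2 + 1)) by
      rw [Nat.sub_eq_iff_eq_add h0]; ring, oGU_succ, if_pos (by simp [parity_simps]), pow_add,
      pow_add q (2 * k + 2), ← mul_assoc]
    exact Nat.mul_le_mul (oGU_even_ge hq k) (Nat.mul_le_mul_left _ (Nat.le_succ _))

theorem PP_le (m q : ℕ) : PP m q ≤ q ^ (m ^ 2 + m) := by
  induction m with
  | zero => simp [PP]
  | succ m ih =>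
    rw [PP_succ, show (m + 1) ^ 2 + (m + 1) = m ^ 2 + m + 2 * (m + 1) by ring, pow_add]
    exact Nat.mul_le_mul ih (Nat.sub_le _ _)

theorem PP_ge_aux (hq : 2 ≤ q) (m : ℕ) :
    (((q : ℤ) ^ 2 - 2) * q ^ (2 * m) + 1) * q ^ (m ^ 2 + m) ≤ ((q : ℤ) ^ 2 - 1) * q ^ (2 * m) * PP m q := by
  have hq' : (2 : ℤ) ≤ q := by exact_mod_cast hq
  induction m with
  | zero =>
    simp [PP]
    linarith
  | succ m ih =>
    have h1 : 1 ≤ q ^ (2 * (m + 1)) := Nat.one_le_pow _ _ (by omega)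
    rw [PP_succ, Nat.cast_mul, Nat.cast_sub h1]
    push_cast
    have h2 : (0 : ℤ) < (q : ℤ) ^ (2 * m) := by positivity
    have h3 : (0 : ℤ) ≤ (q : ℤ) ^ (m ^ 2 + m) := by positivity
    have h4 : (1 : ℤ) ≤ (q : ℤ) ^ (2 * (m + 1)) := by exact_mod_cast h1
    have e1 : (q : ℤ) ^ ((m + 1) ^ 2 + (m + 1)) = q ^ (m ^ 2 + m) * (q ^ (2 * m) * q ^ 2) := by ring
    have e2 : ((q : ℤ) ^ 2 - 1) * q ^ (2 * (m + 1)) * (PP m q * (q ^ (2 * (m + 1)) - 1)) =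
        (q ^ 2 - 1) * q ^ (2 * m) * PP m q * (q ^ 2 * (q ^ (2 * (m + 1)) - 1)) := by ring
    rw [e1, e2]
    refine le_trans ?_ (mul_le_mul_of_nonneg_right ih (mul_nonneg (by positivity) (by omega)))
    generalize (q : ℤ) ^ (m ^ 2 + m) = Y at h3
    rw [show (q : ℤ) ^ (2 * (m + 1)) = q ^ (2 * m) * q ^ 2 by ring]
    generalize (q : ℤ) ^ (2 * m) = X at h2
    have h5 : (((q : ℤ) ^ 2 - 2) * (X * q ^ 2) + 1) * X ≤ (((q : ℤ) ^ 2 - 2) * X + 1) * (X * q ^ 2 - 1) := by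
      nlinarith
    have h6 := mul_le_mul_of_nonneg_right h5 (show (0 : ℤ) ≤ Y * q ^ 2 by positivity)
    nlinarith

/-- `∏ (1 - q^(-2i)) ≥ 1 - 1 / (q² - 1)` -/
theorem PP_ge (hq : 2 ≤ q) (m : ℕ) : (q ^ 2 - 2) * q ^ (m ^ 2 + m) ≤ (q ^ 2 - 1) * PP m q := by
  have h1 := PP_ge_aux hq m
  have h2 : 2 ≤ q ^ 2 := by nlinarith
  have h2' : 1 ≤ q ^ 2 := by omega
  zify [h2, h2']
  have h3 : (0 : ℤ) < (q : ℤ) ^ (2 * m) := by positivity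
  have h4 : (0 : ℤ) ≤ (q : ℤ) ^ (m ^ 2 + m) := by positivity
  refine le_of_mul_le_mul_left ?_ h3
  nlinarith

theorem PP_ge' (hq : 2 ≤ q) (m : ℕ) : 2 * q ^ (m ^ 2 + m) ≤ 3 * PP m q := by
  have h1 := PP_ge hq m
  have h2 : 4 ≤ q ^ 2 := by nlinarith
  obtain ⟨r, hr⟩ := Nat.exists_eq_add_of_le' h2
  rw [hr, show r + 4 - 2 = r + 2 by omega, show r + 4 - 1 = r + 3 by omega] at h1
  refine Nat.le_of_mul_le_mul_left ?_ (by omega : 0 < r + 3)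
  nlinarith [Nat.zero_le (r * q ^ (m ^ 2 + m))]

theorem oSp_le (k q : ℕ) : oSp k q ≤ q ^ (2 * k ^ 2 + k) := by
  rw [oSp, show 2 * k ^ 2 + k = k ^ 2 + (k ^ 2 + k) by ring, pow_add]
  exact Nat.mul_le_mul_left _ (PP_le k q)

theorem oSp_ge (hq : 2 ≤ q) (k : ℕ) : (q ^ 2 - 2) * q ^ (2 * k ^ 2 + k) ≤ (q ^ 2 - 1) * oSp k q := by
  rw [oSp, show 2 * k ^ 2 + k = k ^ 2 + (k ^ 2 + k) by ring, pow_add, mul_left_comm, mul_left_comm (q ^ 2 - 1)]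
  exact Nat.mul_le_mul_left _ (PP_ge hq k)

theorem oSp_ge' (hq : 2 ≤ q) (k : ℕ) : 2 * q ^ (2 * k ^ 2 + k) ≤ 3 * oSp k q := by
  rw [oSp, show 2 * k ^ 2 + k = k ^ 2 + (k ^ 2 + k) by ring, pow_add, mul_left_comm, mul_left_comm 3]
  exact Nat.mul_le_mul_left _ (PP_ge' hq k)

theorem oP_le_oM (m q : ℕ) : oP m q ≤ oM m q :=
  Nat.mul_le_mul_right _ (Nat.mul_le_mul_left _ ((Nat.sub_le _ _).trans (Nat.le_succ _)))

theorem oP_le (m q : ℕ) : oP (m + 1) q ≤ q ^ (2 * m ^ 2 + 3 * m + 1) := by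
  rw [oP, Nat.add_sub_cancel, show 2 * m ^ 2 + 3 * m + 1 = (m + 1) * m + (m + 1) + (m ^ 2 + m) by ring, pow_add q _ (m ^ 2 + m),
    pow_add q _ (m + 1)]
  exact Nat.mul_le_mul (Nat.mul_le_mul_left _ (Nat.sub_le _ _)) (PP_le m q)

/-- dimension `2 (m + 1) ≥ 4` -/
theorem oM_le (hq : 1 ≤ q) {m : ℕ} (hm : 1 ≤ m) : oM (m + 1) q ≤ q ^ (2 * m ^ 2 + 3 * m + 1) := by
  obtain ⟨m, rfl⟩ := Nat.exists_eq_add_of_le' hm
  have h2 : ∀ j, PP (j + 1) q ≤ (q ^ 2 - 1) * q ^ (j ^ 2 + 3 * j) := fun j => by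
    induction j with
    | zero => simp [PP]
    | succ j ih =>
      rw [PP_succ, show (j + 1) ^ 2 + 3 * (j + 1) = j ^ 2 + 3 * j + 2 * (j + 1 + 1) by ring, pow_add, ← mul_assoc]
      exact Nat.mul_le_mul ih (Nat.sub_le _ _)
  have h3 : (q ^ (m + 1 + 1) + 1) * (q ^ 2 - 1) ≤ q ^ (m + 1 + 1) * q ^ 2 := by
    have h4 : q ^ 2 ≤ q ^ (m + 1 + 1) := Nat.pow_le_pow_right hq (by omega)
    obtain ⟨a, ha⟩ := Nat.exists_eq_add_of_le' (Nat.one_le_pow 2 _ hq)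
    rw [ha] at h4 ⊢
    rw [Nat.add_sub_cancel]
    nlinarith
  rw [oM, Nat.add_sub_cancel]
  calc _ ≤ q ^ ((m + 1 + 1) * (m + 1)) * (q ^ (m + 1 + 1) + 1) * ((q ^ 2 - 1) * q ^ (m ^ 2 + 3 * m)) :=
        Nat.mul_le_mul_left _ (h2 m)
    _ = q ^ ((m + 1 + 1) * (m + 1)) * q ^ (m ^ 2 + 3 * m) * ((q ^ (m + 1 + 1) + 1) * (q ^ 2 - 1)) := by ring
    _ ≤ q ^ ((m + 1 + 1) * (m + 1)) * q ^ (m ^ 2 + 3 * m) * (q ^ (m + 1 + 1) * q ^ 2) := Nat.mul_le_mul_left _ h3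
    _ = _ := by ring

theorem oM_ge (hq : 2 ≤ q) (m : ℕ) : 2 * q ^ (2 * m ^ 2 + 3 * m + 1) ≤ 3 * oM (m + 1) q := by
  rw [oM, Nat.add_sub_cancel, show 2 * m ^ 2 + 3 * m + 1 = (m + 1) * m + (m + 1) + (m ^ 2 + m) by ring, pow_add, pow_add,
    mul_left_comm, mul_left_comm 3]
  exact Nat.mul_le_mul (Nat.mul_le_mul_left _ (Nat.le_succ _)) (PP_ge' hq m)

/-- dimension `2 (m + 1) ≥ 8` -/
theorem oP_ge (hq : 2 ≤ q) {m : ℕ} (hm : 3 ≤ m) : 5 * q ^ (2 * m ^ 2 + 3 * m + 1) ≤ 8 * oP (m + 1) q := by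
  have h1 : 16 ≤ q ^ (m + 1) := le_trans (Nat.pow_le_pow_left hq 4) (Nat.pow_le_pow_right (by omega) (by omega))
  have h2 : 15 * q ^ (m + 1) ≤ 16 * (q ^ (m + 1) - 1) := by omega
  have h3 := Nat.mul_le_mul_left (q ^ ((m + 1) * m)) (Nat.mul_le_mul h2 (PP_ge' hq m))
  rw [oP, Nat.add_sub_cancel, show 2 * m ^ 2 + 3 * m + 1 = (m + 1) * m + (m + 1) + (m ^ 2 + m) by ring, pow_add, pow_add]
  nlinarith

end Cfsg.Agent.N2C.Cyc
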